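import Mathlib
import Cfsg.Agent.K5T.Gr
import Cfsg.Agent.S4571

set_option autoImplicit false

namespace Cfsg.Agent.K5T

open Subgroup Cfsg Cfsg.Agent.Block Cfsg.Agent.Char Cfsg.Agent.TrP

variable {G : Type*} [Group G] [Finite G] {M : Ideal AlgInt}

/-- Generalisation of `TrP.card_section_le` (same proof, `sum_section`). -/
theorem sec_le {p : ℕ} [Fact p.Prime] {x : G} (hx : ∃ k, orderOf x = p ^ k) {r s : ℕ}
    (h : r * Nat.card {y : centralizer ({x} : Set G) // ¬ p ∣ orderOf y} ≤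
      s * Nat.card (centralizer ({x} : Set G))) : r * sec p x ≤ s * Nat.card G := by
  classical
  have := Fintype.ofFinite G
  have h1 := sum_section hx rfl (isClassFunction_const (G := G) 1)
  rw [Finset.sum_congr rfl (f := regPart _ _) (g := fun y => if ¬ p ∣ orderOf y then 1 else 0)
    fun y _ => by
      split_ifs with e
      exacts [regPart_of_dvd _ e, regPart_of_not_dvd _ e]] at h1
  simp only [Finset.sum_boole] at h1
  rw [Nat.card_eq_fintype_card, Fintype.card_subtype] at h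
  rw [sec, Nat.card_eq_fintype_card, Fintype.card_subtype, ← (centralizer ({x} : Set G)).index_mul_card,
    show Finset.card _ = _ by exact_mod_cast h1, mul_left_comm, mul_left_comm s]
  exact Nat.mul_le_mul_left _ h

/-- This is `key` in `TrP.mul_card_sing_le` (`card_mul_reg_le` for `P.subgroupOf C(x)`). -/
theorem den_np (P : Sylow 2 G) {x : G} (hx : x ∈ (P : Subgroup G)) (h : NP x) :
    cc (P : Subgroup G) x * sec 2 x ≤ Nat.card G := by
  have h9 := Transfer.hasNormalPComplement_iff_coprime.1 h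
  rw [← one_mul (Nat.card G)]
  refine sec_le (orderOf_eq_pow_of_mem P.2 hx) ((Nat.mul_le_mul_right _ (le_of_eq ?_)).trans ((card_mul_reg_le
    ((P : Subgroup G).subgroupOf _) fun q hq y h10 h11 => ?_).trans (one_mul _).ge))
  · rw [← inf_subgroupOf_right, Nat.card_congr (subgroupOfEquivOfLe inf_le_right).toEquiv]
  · refine eq_one_of_orderOf_pow_of_not_dvd (orderOf_eq_pow_of_mem P.2.comap_subtype hq)
      fun e => not_dvd_iff_coprime.2 h9 (e.trans (orderOf_dvd_natCard _ ?_))
    simpa using mul_mem (Transfer.mem_pResidual_of_coprime (not_dvd_iff_coprime.1 h11))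
      (inv_mem (Transfer.mem_pResidual_of_coprime (not_dvd_iff_coprime.1 h10)))

/-- Last part of `TrP.mul_card_sing_le` (`card_mul_reg_le` for `zpowers x`). -/
theorem den_two {x : G} (hx : ∃ k, orderOf x = 2 ^ k) (h1 : x ≠ 1) :
    2 * sec 2 x ≤ Nat.card G := by
  rw [← one_mul (Nat.card G)]
  refine sec_le hx ((Nat.mul_le_mul_right _ ?_).trans ((card_mul_reg_le
    (zpowers ⟨x, mem_centralizer_singleton_iff.2 rfl⟩) fun q hq y h10 h11 => ?_).trans (one_mul _).ge))
  · rw [Nat.card_zpowers, orderOf_mk]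
    exact Nat.le_of_dvd (orderOf_pos _) (by_contra fun e => h1 (eq_one_of_orderOf_pow_of_not_dvd hx e))
  · obtain ⟨n, rfl⟩ := hq
    refine (pPart_mul_eq (Commute.zpow_left (Subtype.ext (mem_centralizer_singleton_iff.1 y.2).symm)
      n) (orderOf_eq_pow_of_mem (orderOf_eq_pow_iff_isPGroup.1 ?_) (zpow_mem_zpowers _ n))
      h10).symm.trans (pPart_eq_one_iff.2 h11)
    rw [orderOf_mk]; exact hx

theorem den_reg (hM : IsPModular 2 M) {z : G} (hz : orderOf z = 2) (hc : z ∈ center G)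
    (hl : blockRank 2 (principalBlock M G) = 2) (h16 : 16 ∣ Nat.card G) :
    16 * Nat.card {g : G // ¬ 2 ∣ orderOf g} ≤ 5 * Nat.card G := by
  have h1 : zpowers z ≤ center G := zpowers_le.2 hc
  have : (zpowers z).Normal := ⟨fun n hn g => by
    rwa [mem_center_iff.1 (h1 hn) g, mul_inv_cancel_right]⟩
  have h2 : Nat.card (zpowers z) = 2 := by rw [Nat.card_zpowers, hz]
  have h3 := card_eq_card_quotient_mul_card_subgroup (zpowers z)
  rw [h2] at h3
  obtain ⟨P⟩ : Nonempty (Sylow 2 (G ⧸ zpowers z)) := inferInstance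
  have h4 := reg_le hM P ((S4571.result 2 M hM (zpowers z) (.of_card (n := 1) h2) (eq_top_iff.2 fun g _ =>
    mem_sup_right (mem_centralizer_iff.2 fun y hy => (mem_center_iff.1 (h1 hy) g).symm))).symm.trans hl)
    (P.pow_dvd_card_of_pow_dvd_card (n := 3) (by omega))
  have h5 : Nat.card {g : G // ¬ 2 ∣ orderOf g} ≤ Nat.card {g : G ⧸ zpowers z // ¬ 2 ∣ orderOf g} := by
    refine Nat.card_le_card_of_injective (fun g => ⟨g.1, fun e =>
      g.2 (e.trans (orderOf_map_dvd (QuotientGroup.mk' _) g.1))⟩) fun a b e => Subtype.ext ?_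
    have k := QuotientGroup.eq.1 (congrArg Subtype.val e)
    have c : Commute a.1 (a.1⁻¹ * b.1) := mem_center_iff.1 (h1 k) _
    have k2 := c.mul_pow (orderOf a.1 * orderOf b.1)
    rw [mul_inv_cancel_left, pow_mul a.1, pow_orderOf_eq_one, one_pow, one_mul, mul_comm, pow_mul b.1,
      pow_orderOf_eq_one, one_pow] at k2
    refine inv_mul_eq_one.1 (orderOf_eq_one_iff.1 (Nat.eq_one_of_dvd_coprimes ?_
      (h2 ▸ orderOf_dvd_natCard _ k) (orderOf_dvd_of_pow_eq_one k2.symm)))
    exact (Nat.Prime.coprime_iff_not_dvd Nat.prime_two).2 fun e => (Nat.prime_two.dvd_mul.1 e).elim b.2 a.2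
  omega

/-- `C = C(z)`, `Z = ⟨z⟩` central of order 2 in `C`, `H = C / Z`.  `S4571.result` gives
`l(B₀(H)) = l(B₀(C)) = 2`.  `P ≤ C`, so `16 ∣ #C = 2 #H` and a Sylow 2-subgroup of `H` has order
divisible by `8`.  `reg_le` for `H`: `8 #reg(H) ≤ 5 #H`.  The map `reg(C) → reg(H)` is injective
(if `y' = y z` then `y'` has even order), so `16 #reg(C) ≤ 10 #H = 5 #C`; `sec_le`. -/
theorem den_cen (hM : IsPModular 2 M) (P : Sylow 2 G) {z : G} (hz : orderOf z = 2)
    (hc : (P : Subgroup G) ≤ centralizer ({z} : Set G)) (hl : lAt 2 M z = 2)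
    (h16 : 16 ∣ Nat.card (P : Subgroup G)) : 16 * sec 2 z ≤ 5 * Nat.card G := by
  refine sec_le ⟨1, hz⟩ (den_reg hM (z := ⟨z, mem_centralizer_singleton_iff.2 rfl⟩) (by rw [orderOf_mk, hz])
    (mem_center_iff.2 fun g => Subtype.ext (mem_centralizer_singleton_iff.1 g.2)) hl
    (h16.trans (card_dvd_of_le hc)))

end Cfsg.Agent.K5T
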